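import Cfsg.Agent.H66.Util

set_option autoImplicit false

namespace Cfsg.Agent.H66

variable {G : Type*} [Group G]

theorem sylow_le_centralizer_aux [Finite G] {p : ℕ} (h : ∀ x y : G, (∃ a : ℕ, orderOf x = p ^ a) →
    (∃ q b : ℕ, q.Prime ∧ q ≠ p ∧ orderOf y = q ^ b) → x * y = y * x) (P : Subgroup G) (hP : IsPGroup p P)
    (hp : p.Prime) (q : ℕ) (hq : q.Prime) (hqp : q ≠ p) (Q : Subgroup G) (hQ : IsPGroup q Q) :
    Q ≤ Subgroup.centralizer (P : Set G) := by
  have : Fact p.Prime := ⟨hp⟩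
  have : Fact q.Prime := ⟨hq⟩
  intro y hy
  rw [Subgroup.mem_centralizer_iff]
  intro x hx
  apply h x y
  · obtain ⟨k, hk⟩ := (IsPGroup.iff_orderOf.1 hP) ⟨x, hx⟩
    exact ⟨k, by rw [← hk, Subgroup.orderOf_mk]⟩
  · obtain ⟨k, hk⟩ := (IsPGroup.iff_orderOf.1 hQ) ⟨y, hy⟩
    exact ⟨q, k, hq, hqp, by rw [← hk, Subgroup.orderOf_mk]⟩

theorem direct_factor [Finite G] (p : ℕ) [hp : Fact p.Prime] (h : ∀ x y : G, (∃ a : ℕ, orderOf x = p ^ a) →
    (∃ q b : ℕ, q.Prime ∧ q ≠ p ∧ orderOf y = q ^ b) → x * y = y * x) :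
    ∃ (P : Sylow p G) (K : Subgroup G), (P : Subgroup G).Normal ∧ K.Normal ∧
      (P : Subgroup G) ⊓ K = ⊥ ∧ (P : Subgroup G) ⊔ K = ⊤ := by
  obtain ⟨P⟩ : Nonempty (Sylow p G) := inferInstance
  have hPn : (P : Subgroup G).Normal := by
    rw [← Subgroup.normalizer_eq_top_iff]
    apply eq_top_of_sylow_le
    intro q hq
    by_cases hqp : q = p
    · subst hqp
      exact ⟨P, Subgroup.le_normalizer⟩
    · obtain ⟨Q⟩ : Nonempty (Sylow q G) := inferInstance
      refine ⟨Q, (sylow_le_centralizer_aux h (P : Subgroup G) P.isPGroup' hp.out q hq.out hqp Q Q.isPGroup').trans ?_⟩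
      exact Subgroup.centralizer_le_normalizer _
  obtain ⟨K, hK⟩ := Subgroup.exists_right_complement'_of_coprime (N := (P : Subgroup G)) P.card_coprime_index
  have hKcard : Nat.card K = (P : Subgroup G).index := hK.card_right
  have hKC : K ≤ Subgroup.centralizer ((P : Subgroup G) : Set G) := by
    rw [← Subgroup.subgroupOf_eq_top]
    apply eq_top_of_sylow_le
    intro q hq
    obtain ⟨Q⟩ : Nonempty (Sylow q K) := inferInstance
    refine ⟨Q, ?_⟩
    by_cases hqp : q = p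
    · subst hqp
      have h1 : (Q : Subgroup K) = ⊥ := by
        rw [Subgroup.eq_bot_iff_card]
        obtain ⟨k, hk⟩ := IsPGroup.iff_card.1 Q.isPGroup'
        rcases Nat.eq_zero_or_pos k with hk0 | hk0
        · rw [hk, hk0, pow_zero]
        · exfalso
          have h2 : q ∣ Nat.card K := by
            refine Dvd.dvd.trans ?_ (Subgroup.card_subgroup_dvd_card (Q : Subgroup K))
            rw [hk]; exact dvd_pow_self q (by omega)
          rw [hKcard] at h2
          exact P.not_dvd_index h2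
      rw [h1]; exact bot_le
    · have h1 := sylow_le_centralizer_aux h (P : Subgroup G) P.isPGroup' hp.out q hq.out hqp
        ((Q : Subgroup K).map K.subtype) (Q.isPGroup'.map _)
      intro y hy
      exact h1 (Subgroup.mem_map_of_mem _ hy)
  refine ⟨P, K, hPn, ?_, hK.disjoint.eq_bot, hK.sup_eq_top⟩
  rw [← Subgroup.normalizer_eq_top_iff, eq_top_iff, ← hK.sup_eq_top]
  refine sup_le ?_ Subgroup.le_normalizer
  refine le_trans ?_ (Subgroup.centralizer_le_normalizer _)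
  rw [Subgroup.le_centralizer_iff]
  exact hKC

/-- conversely -/
theorem mem_of_direct_factor [Finite G] (p : ℕ) [hp : Fact p.Prime] (P : Sylow p G) (K : Subgroup G)
    (hP : (P : Subgroup G).Normal) (hK : K.Normal) (hPK : (P : Subgroup G) ⊓ K = ⊥) (hPK' : (P : Subgroup G) ⊔ K = ⊤)
    (x y : G) (hx : ∃ a : ℕ, orderOf x = p ^ a) (hy : ∃ q b : ℕ, q.Prime ∧ q ≠ p ∧ orderOf y = q ^ b) :
    x ∈ (P : Subgroup G) ∧ y ∈ K ∧ K ≤ Subgroup.centralizer ((P : Subgroup G) : Set G) := by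
  have hcomm : ∀ u ∈ (P : Subgroup G), ∀ v ∈ K, u * v = v * u := by
    intro u hu v hv
    have h1 : u * v * u⁻¹ * v⁻¹ ∈ (P : Subgroup G) ⊓ K := by
      refine ⟨?_, ?_⟩
      · have h2 := hP.conj_mem _ ((P : Subgroup G).inv_mem hu) v
        rw [show u * v * u⁻¹ * v⁻¹ = u * (v * u⁻¹ * v⁻¹) by group]
        exact (P : Subgroup G).mul_mem hu h2
      · exact K.mul_mem (hK.conj_mem _ hv u) (K.inv_mem hv)
    rw [hPK, Subgroup.mem_bot] at h1
    calc u * v = u * v * u⁻¹ * v⁻¹ * (v * u) := by group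
      _ = v * u := by rw [h1, one_mul]
  refine ⟨?_, ?_, ?_⟩
  · obtain ⟨a, ha⟩ := hx
    have h1 : IsPGroup p (Subgroup.zpowers x) := by
      rw [IsPGroup.iff_card, Nat.card_zpowers]; exact ⟨a, ha⟩
    have h2 := IsPGroup.inf_normalizer_sylow h1 P
    have h5 : Subgroup.normalizer (P : Set G) = ⊤ := (Subgroup.normalizer_eq_top_iff).2 hP
    rw [h5, inf_top_eq] at h2
    have h3 : x ∈ Subgroup.zpowers x ⊓ (P : Subgroup G) := h2.le (Subgroup.mem_zpowers x)
    exact h3.2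
  · obtain ⟨q, b, hq, hqp, hb⟩ := hy
    have h1 : y ∈ (P : Subgroup G) ⊔ K := by rw [hPK']; exact Subgroup.mem_top _
    rw [Subgroup.mem_sup_of_normal_left] at h1
    obtain ⟨u, hu, v, hv, rfl⟩ := h1
    have h2 : Commute u v := hcomm u hu v hv
    have h3 : u ^ (q ^ b) * v ^ (q ^ b) = 1 := by
      rw [← h2.mul_pow, ← hb, pow_orderOf_eq_one]
    have h4 : u ^ (q ^ b) ∈ (P : Subgroup G) ⊓ K := by
      refine ⟨(P : Subgroup G).pow_mem hu _, ?_⟩
      rw [eq_inv_of_mul_eq_one_left h3]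
      exact K.inv_mem (K.pow_mem hv _)
    rw [hPK, Subgroup.mem_bot] at h4
    obtain ⟨k, hk⟩ := (IsPGroup.iff_orderOf.1 P.isPGroup') ⟨u, hu⟩
    rw [Subgroup.orderOf_mk] at hk
    have h5 : orderOf u = 1 := by
      have h6 : orderOf u ∣ q ^ b := orderOf_dvd_of_pow_eq_one h4
      have h7 : (p ^ k).Coprime (q ^ b) := Nat.Coprime.pow _ _ ((Nat.coprime_primes hp.out hq).2 hqp.symm)
      exact Nat.eq_one_of_dvd_coprimes h7 (by rw [hk]) h6
    rw [orderOf_eq_one_iff.1 h5, one_mul]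
    exact hv
  · intro v hv
    rw [Subgroup.mem_centralizer_iff]
    intro u hu
    exact hcomm u hu v hv

end Cfsg.Agent.H66
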